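import Mathlib
import Cfsg.Agent.Lib.Helper39.SylowRel
import Cfsg.Agent.Lib.Helper57.SylowNormal
import Cfsg.Agent.Lib.Helper58.SylowConj
import Cfsg.Agent.Lib.Helper14.Sup

set_option autoImplicit false

/-! Groups in which every 2-element is 2-central: basic lemmas on `Om X` (generated by involutions). -/

namespace Cfsg.Agent.Lib.Helper38.TwoCentral

open Cfsg.Agent.Lib.Helper39
open scoped Pointwise

variable {G : Type*} [Group G]

/-- the subgroup generated by the elements of `X` of square one -/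
def Om (X : Subgroup G) : Subgroup G := Subgroup.closure {x | x ∈ X ∧ x ^ 2 = 1}

theorem Om_le (X : Subgroup G) : Om X ≤ X := by
  rw [Om, Subgroup.closure_le]; intro x hx; exact hx.1

theorem Om_mono {X Y : Subgroup G} (h : X ≤ Y) : Om X ≤ Om Y :=
  Subgroup.closure_mono fun _ hx => ⟨h hx.1, hx.2⟩

theorem mem_Om_of {X : Subgroup G} {x : G} (hx : x ∈ X) (h2 : x ^ 2 = 1) : x ∈ Om X :=
  Subgroup.subset_closure ⟨hx, h2⟩

theorem cj_Om (g : G) (X : Subgroup G) : cj g (Om X) = Om (cj g X) := by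
  rw [Om, Om, cj, MonoidHom.map_closure]
  congr 1
  ext x
  constructor
  · rintro ⟨y, ⟨hy, hy2⟩, rfl⟩
    refine ⟨⟨y, hy, rfl⟩, ?_⟩
    rw [← map_pow, hy2, map_one]
  · rintro ⟨⟨y, hy, rfl⟩, h2⟩
    refine ⟨y, ⟨hy, ?_⟩, rfl⟩
    rw [← map_pow] at h2
    exact (MulAut.conj g).injective (by simpa using h2)

theorem cj_Om_of_mem_normalizer {g : G} {X : Subgroup G} (hg : g ∈ Subgroup.normalizer (X : Set G)) :
    cj g (Om X) = Om X := by
  rw [cj_Om, cj_eq_of_mem_normalizer hg]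

theorem conj_mem_Om {g x : G} {X : Subgroup G} (hg : g ∈ Subgroup.normalizer (X : Set G))
    (hx : x ∈ Om X) : g * x * g⁻¹ ∈ Om X := by
  have := conj_mem_cj (g := g) hx
  rwa [cj_Om_of_mem_normalizer hg] at this

theorem le_normalizer_Om (X : Subgroup G) : X ≤ Subgroup.normalizer (Om X : Set G) := by
  intro g hg
  apply mem_normalizer_of_cj_eq
  exact cj_Om_of_mem_normalizer (Subgroup.le_normalizer hg)

/-- elements of square one in `X` commute -/
def CommInv (X : Subgroup G) : Prop := ∀ s ∈ X, ∀ t ∈ X, s ^ 2 = 1 → t ^ 2 = 1 → s * t = t * s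

theorem CommInv.mono {X Y : Subgroup G} (h : X ≤ Y) (hY : CommInv Y) : CommInv X :=
  fun s hs t ht => hY s (h hs) t (h ht)

theorem mem_Om_iff {X : Subgroup G} (hc : CommInv X) {x : G} : x ∈ Om X ↔ x ∈ X ∧ x ^ 2 = 1 := by
  constructor
  · intro hx
    refine ⟨Om_le X hx, ?_⟩
    have key : x ∈ X ∧ x ^ 2 = 1 := by
      induction hx using Subgroup.closure_induction with
      | mem x hx => exact hx
      | one => exact ⟨X.one_mem, one_pow 2⟩
      | mul a b _ _ iha ihb =>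
        refine ⟨X.mul_mem iha.1 ihb.1, ?_⟩
        have hcomm := hc a iha.1 b ihb.1 iha.2 ihb.2
        have : (a * b) ^ 2 = a ^ 2 * b ^ 2 := (Commute.mul_pow hcomm 2)
        rw [this, iha.2, ihb.2, one_mul]
      | inv a _ iha =>
        exact ⟨X.inv_mem iha.1, by rw [inv_pow, iha.2, inv_one]⟩
    exact key.2
  · rintro ⟨h1, h2⟩
    exact mem_Om_of h1 h2

theorem Om_comm {X : Subgroup G} (hc : CommInv X) {a b : G} (ha : a ∈ Om X) (hb : b ∈ Om X) :
    a * b = b * a := by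
  rw [mem_Om_iff hc] at ha hb
  exact hc a ha.1 b hb.1 ha.2 hb.2

theorem Om_le_centralizer_Om {X : Subgroup G} (hc : CommInv X) :
    Om X ≤ Subgroup.centralizer (Om X : Set G) := by
  intro a ha
  rw [Subgroup.mem_centralizer_iff]
  intro b hb
  exact Om_comm hc hb ha

/-- the elements of `N(D)` acting trivially on `D / Om D` -/
def stab (D : Subgroup G) : Subgroup G where
  carrier := {g | g ∈ Subgroup.normalizer (D : Set G) ∧ ∀ d ∈ D, g * d * g⁻¹ * d⁻¹ ∈ Om D}
  one_mem' := ⟨Subgroup.one_mem _, fun d _ => by simp [Subgroup.one_mem]⟩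
  mul_mem' := by
    rintro g h ⟨hg, hg'⟩ ⟨hh, hh'⟩
    refine ⟨Subgroup.mul_mem _ hg hh, fun d hd => ?_⟩
    have e : g * h * d * (g * h)⁻¹ * d⁻¹ = (g * (h * d * h⁻¹ * d⁻¹) * g⁻¹) * (g * d * g⁻¹ * d⁻¹) := by
      group
    rw [e]
    exact Subgroup.mul_mem _ (conj_mem_Om hg (hh' d hd)) (hg' d hd)
  inv_mem' := by
    rintro g ⟨hg, hg'⟩
    refine ⟨Subgroup.inv_mem _ hg, fun d hd => ?_⟩
    have hd' : g⁻¹ * d * g ∈ D := by
      have := (Subgroup.mem_normalizer_iff.mp (Subgroup.inv_mem _ hg) d).mp hd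
      simpa using this
    have h1 := hg' _ hd'
    have e : g⁻¹ * d * g⁻¹⁻¹ * d⁻¹ = (g * (g⁻¹ * d * g) * g⁻¹ * (g⁻¹ * d * g)⁻¹)⁻¹ := by group
    rw [e]
    exact Subgroup.inv_mem _ h1

theorem mem_stab {D : Subgroup G} {g : G} :
    g ∈ stab D ↔ g ∈ Subgroup.normalizer (D : Set G) ∧ ∀ d ∈ D, g * d * g⁻¹ * d⁻¹ ∈ Om D := Iff.rfl

theorem stab_le (D : Subgroup G) : stab D ≤ Subgroup.normalizer (D : Set G) := fun _ h => h.1

theorem conj_mem_stab {D : Subgroup G} {n g : G} (hn : n ∈ Subgroup.normalizer (D : Set G))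
    (hg : g ∈ stab D) : n * g * n⁻¹ ∈ stab D := by
  refine ⟨Subgroup.mul_mem _ (Subgroup.mul_mem _ hn hg.1) (Subgroup.inv_mem _ hn), fun d hd => ?_⟩
  have hd' : n⁻¹ * d * n ∈ D := by
    have := (Subgroup.mem_normalizer_iff.mp (Subgroup.inv_mem _ hn) d).mp hd
    simpa using this
  have h1 := hg.2 _ hd'
  have e : n * g * n⁻¹ * d * (n * g * n⁻¹)⁻¹ * d⁻¹ =
      n * (g * (n⁻¹ * d * n) * g⁻¹ * (n⁻¹ * d * n)⁻¹) * n⁻¹ := by group
  rw [e]
  exact conj_mem_Om hn h1

theorem normalizer_le_normalizer_stab (D : Subgroup G) :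
    Subgroup.normalizer (D : Set G) ≤ Subgroup.normalizer (stab D : Set G) := by
  intro n hn
  rw [Subgroup.mem_normalizer_iff]
  intro g
  constructor
  · intro hg; exact conj_mem_stab hn hg
  · intro hg
    have := conj_mem_stab (Subgroup.inv_mem _ hn) hg
    have e : n⁻¹ * (n * g * n⁻¹) * n⁻¹⁻¹ = g := by group
    rwa [e] at this

/-- relative version: intersection of a Sylow subgroup of `N` with a subgroup normalized by `N`. -/
theorem not_dvd_relIndex_inf_of_le_normalizer [Finite G] {p : ℕ} [Fact p.Prime] {T N B : Subgroup G}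
    (hTN : T ≤ N) (hT : IsPGroup p T) (hidx : ¬ p ∣ T.relIndex N) (hBN : B ≤ N)
    (hnorm : N ≤ Subgroup.normalizer (B : Set G)) : ¬ p ∣ (T ⊓ B).relIndex B := by
  have hT' : IsPGroup p (T.subgroupOf N) := hT.comap_subtype
  let T' : Sylow p N := hT'.toSylow hidx
  have hB' : (B.subgroupOf N).Normal := (Subgroup.normal_subgroupOf_iff_le_normalizer hBN).mpr hnorm
  have h := Cfsg.Agent.Lib.Helper57.not_dvd_relIndex_inf_normal T' (B.subgroupOf N)
  have e : ((T' : Subgroup N) ⊓ B.subgroupOf N) = (T ⊓ B).subgroupOf N := by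
    show T.subgroupOf N ⊓ B.subgroupOf N = _
    ext x; simp [Subgroup.mem_subgroupOf]
  rw [e, Subgroup.relIndex_subgroupOf hBN] at h
  exact h

end Cfsg.Agent.Lib.Helper38.TwoCentral
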