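import Mathlib
import Cfsg.Agent.Lib.Helper38.TwoCentralA

set_option autoImplicit false

/-! The maximal-intersection argument: centralizing `Om` of one Sylow 2-subgroup passes to any other. -/

namespace Cfsg.Agent.Lib.Helper38.TwoCentral

open Cfsg.Agent.Lib.Helper39
open scoped Pointwise

variable {G : Type*} [Group G]

/-- involutions in any Sylow 2-subgroup commute -/
def SylComm (G : Type*) [Group G] : Prop := ∀ P : Sylow 2 G, CommInv (P : Subgroup G)

/-- the statement propagated by the induction -/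
def Prop4 (D : Subgroup G) : Prop :=
  ∀ P Q : Sylow 2 G, D ≤ P → D ≤ Q → ∀ y ∈ D, y ∈ Subgroup.centralizer (Om (Q : Subgroup G) : Set G) →
    y ∈ Subgroup.centralizer (Om (P : Subgroup G) : Set G)

theorem coe_smul_sylow (g : G) (P : Sylow 2 G) : ((g • P : Sylow 2 G) : Subgroup G) = cj g P := by
  rw [Sylow.coe_subgroup_smul]; rfl

theorem good_transport (g : G) (P : Sylow 2 G) {y : G}
    (hy : y ∈ Subgroup.centralizer (Om (P : Subgroup G) : Set G)) :
    g * y * g⁻¹ ∈ Subgroup.centralizer (Om ((g • P : Sylow 2 G) : Subgroup G) : Set G) := by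
  rw [coe_smul_sylow, ← cj_Om, ← cj_centralizer]
  exact conj_mem_cj hy

theorem conj_mem_of_mem_normalizer {D : Subgroup G} {n d : G} (hn : n ∈ Subgroup.normalizer (D : Set G))
    (hd : d ∈ D) : n * d * n⁻¹ ∈ D := (Subgroup.mem_normalizer_iff.mp hn d).mp hd

theorem keyK [Finite G] (hS : SylComm G) (D : Subgroup G) (P₀ : Sylow 2 G) (hD : D ≤ P₀)
    (hidx : ¬ 2 ∣ ((P₀ : Subgroup G) ⊓ Subgroup.normalizer (D : Set G)).relIndex
      (Subgroup.normalizer (D : Set G)))
    (IH : ∀ D' : Subgroup G, D < D' → Prop4 D')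
    (n : G) (hn : n ∈ Subgroup.normalizer (D : Set G)) (y : G) (hy : y ∈ D)
    (hg : y ∈ Subgroup.centralizer (Om (P₀ : Subgroup G) : Set G)) :
    n * y * n⁻¹ ∈ Subgroup.centralizer (Om (P₀ : Subgroup G) : Set G) := by
  have : Fact (Nat.Prime 2) := ⟨Nat.prime_two⟩
  by_cases hE : Om (P₀ : Subgroup G) ≤ D
  · have hEq : Om (P₀ : Subgroup G) = Om D := by
      apply le_antisymm _ (Om_mono hD)
      intro x hx
      exact mem_Om_of (hE hx) ((mem_Om_iff (hS P₀)).mp hx).2
    rw [hEq] at hg ⊢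
    have h1 := conj_mem_cj (g := n) hg
    rwa [cj_centralizer, cj_Om_of_mem_normalizer hn] at h1
  · set N := Subgroup.normalizer (D : Set G) with hN
    set B := stab D with hB
    set SB := (P₀ : Subgroup G) ⊓ B with hSB
    have hBN : B ≤ N := stab_le D
    have hP2 : IsPGroup 2 (P₀ : Subgroup G) := P₀.isPGroup'
    have hSBidx : ¬ 2 ∣ SB.relIndex B := by
      have h := not_dvd_relIndex_inf_of_le_normalizer (p := 2) (T := (P₀ : Subgroup G) ⊓ N) (N := N) (B := B)
        inf_le_right (hP2.to_le inf_le_left) hidx hBN (normalizer_le_normalizer_stab D)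
      have e : (P₀ : Subgroup G) ⊓ N ⊓ B = SB := by
        rw [inf_assoc, inf_eq_right.mpr hBN]
      rwa [e] at h
    have hSB2 : IsPGroup 2 SB := hP2.to_le inf_le_left
    -- an element of `SB` outside `D`
    obtain ⟨e, heSB, heD⟩ : ∃ e ∈ SB, e ∉ D := by
      have hlt : D < D ⊔ Om (P₀ : Subgroup G) := by
        refine lt_of_le_of_ne le_sup_left ?_
        intro h
        apply hE
        rw [h]; exact le_sup_right
      have hle : D ⊔ Om (P₀ : Subgroup G) ≤ P₀ := sup_le hD (Om_le _)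
      obtain ⟨s, hs, hsD, hsN⟩ := Cfsg.Agent.Lib.Helper58.exists_normalizing_not_mem (p := 2)
        (D ⊔ Om (P₀ : Subgroup G)) D (hP2.to_le hle) hlt
      have hnorm : D ≤ Subgroup.normalizer (Om (P₀ : Subgroup G) : Set G) :=
        hD.trans (le_normalizer_Om _)
      rw [sup_comm] at hs
      obtain ⟨e, he, d, hd, rfl⟩ := (Cfsg.Agent.Lib.Helper14.mem_sup_of_le_normalizer hnorm).mp hs
      have heN : e ∈ N := by
        have : e = (e * d) * d⁻¹ := by group
        rw [this]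
        exact Subgroup.mul_mem _ hsN (Subgroup.inv_mem _ (Subgroup.le_normalizer hd))
      have heD : e ∉ D := fun h => hsD (D.mul_mem h hd)
      refine ⟨e, Subgroup.mem_inf.mpr ⟨Om_le _ he, ⟨heN, fun d' hd' => ?_⟩⟩, heD⟩
      have h1 : e * d' * e⁻¹ * d'⁻¹ ∈ D :=
        D.mul_mem (conj_mem_of_mem_normalizer heN hd') (D.inv_mem hd')
      have h2 : e * d' * e⁻¹ * d'⁻¹ ∈ Om (P₀ : Subgroup G) := by
        have h3 : d' * e⁻¹ * d'⁻¹ ∈ Om (P₀ : Subgroup G) :=
          conj_mem_Om (Subgroup.le_normalizer (hD hd')) (Subgroup.inv_mem _ he)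
        have : e * d' * e⁻¹ * d'⁻¹ = e * (d' * e⁻¹ * d'⁻¹) := by group
        rw [this]
        exact Subgroup.mul_mem _ he h3
      exact mem_Om_of h1 ((mem_Om_iff (hS P₀)).mp h2).2
    -- Frattini
    have hcjB : cj n SB ≤ B := by
      intro x hx
      rw [mem_cj] at hx
      have h1 := conj_mem_stab hn (Subgroup.mem_inf.mp hx).2
      have e1 : n * (n⁻¹ * x * n) * n⁻¹ = x := by group
      rwa [e1] at h1
    obtain ⟨b, hbB, hb⟩ := exists_conj_le_of_relIndex (p := 2) (H := B) (R := SB) (Q := cj n SB)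
      inf_le_right hSB2 hSBidx hcjB (isPGroup_cj n hSB2)
    set m := b * n with hm
    have hmN : m ∈ N := Subgroup.mul_mem _ (hBN hbB) hn
    have hmSB : cj m SB = SB := by
      apply cj_eq_of_le
      rw [hm, cj_mul]; exact hb
    have hmD : cj m D = D := cj_eq_of_mem_normalizer hmN
    set Ds := D ⊔ SB with hDs
    have hmDs : cj m Ds = Ds := by
      rw [hDs, cj, Subgroup.map_sup]
      show cj m D ⊔ cj m SB = _
      rw [hmD, hmSB]
    have hDlt : D < Ds := by
      refine lt_of_le_of_ne le_sup_left ?_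
      intro h
      apply heD
      rw [h]; exact (le_sup_right : SB ≤ Ds) heSB
    have hDsP : Ds ≤ P₀ := sup_le hD inf_le_left
    have hDsP4 : Ds ≤ ((m • P₀ : Sylow 2 G) : Subgroup G) := by
      rw [coe_smul_sylow, ← hmDs]
      exact cj_mono m hDsP
    have hz : m * y * m⁻¹ ∈ D := conj_mem_of_mem_normalizer hmN hy
    have h4 := good_transport m P₀ hg
    have h5 := IH Ds hDlt P₀ (m • P₀) hDsP hDsP4 (m * y * m⁻¹) (le_sup_left (a := D) hz) h4
    -- n = b⁻¹ m
    have hb' : b⁻¹ ∈ B := Subgroup.inv_mem _ hbB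
    have h6 := hb'.2 _ hz
    have h7 : b⁻¹ * (m * y * m⁻¹) * b⁻¹⁻¹ * (m * y * m⁻¹)⁻¹ ∈
        Subgroup.centralizer (Om (P₀ : Subgroup G) : Set G) :=
      Om_le_centralizer_Om (hS P₀) (Om_mono hD h6)
    have h8 := Subgroup.mul_mem _ h7 h5
    have e2 : b⁻¹ * (m * y * m⁻¹) * b⁻¹⁻¹ * (m * y * m⁻¹)⁻¹ * (m * y * m⁻¹) = n * y * n⁻¹ := by
      rw [hm]; group
    rwa [e2] at h8

end Cfsg.Agent.Lib.Helper38.TwoCentral
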