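import Mathlib
import Cfsg.Agent.Lib.Helper38.TwoCentralB
import Cfsg.Agent.Lib.Helper14.RelSylow

set_option autoImplicit false

/-! The induction on the intersection. -/

namespace Cfsg.Agent.Lib.Helper38.TwoCentral

open Cfsg.Agent.Lib.Helper39
open scoped Pointwise

variable {G : Type*} [Group G]

theorem card_lt_card_of_lt [Finite G] {D D' : Subgroup G} (hlt : D < D') : Nat.card D < Nat.card D' := by
  have hle := Subgroup.card_le_of_le hlt.le
  rcases hle.lt_or_eq with h | h
  · exact h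
  · exact absurd (Subgroup.eq_of_le_of_card_ge hlt.le h.ge) hlt.ne

theorem exists_hub [Finite G] (D : Subgroup G) (P : Sylow 2 G) (hD : D ≤ P) :
    ∃ P₀ : Sylow 2 G, D ≤ P₀ ∧ ¬ 2 ∣ ((P₀ : Subgroup G) ⊓ Subgroup.normalizer (D : Set G)).relIndex
      (Subgroup.normalizer (D : Set G)) := by
  have : Fact (Nat.Prime 2) := ⟨Nat.prime_two⟩
  set N := Subgroup.normalizer (D : Set G) with hN
  have h2 : IsPGroup 2 (D.subgroupOf N) := (P.isPGroup'.to_le hD).comap_subtype
  obtain ⟨T', hT'⟩ := h2.exists_le_sylow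
  have hT2 : IsPGroup 2 ((T' : Subgroup N).map N.subtype) := T'.isPGroup'.map _
  obtain ⟨P₀, hP₀⟩ := hT2.exists_le_sylow
  refine ⟨P₀, ?_, ?_⟩
  · intro d hd
    apply hP₀
    exact ⟨⟨d, Subgroup.le_normalizer hd⟩, hT' (by rw [Subgroup.mem_subgroupOf]; exact hd), rfl⟩
  · intro hdvd
    have hle : (T' : Subgroup N).map N.subtype ≤ (P₀ : Subgroup G) ⊓ N :=
      le_inf hP₀ (Subgroup.map_subtype_le _)
    have h3 := Subgroup.relIndex_dvd_of_le_left N hle
    rw [Cfsg.Agent.Lib.Helper14.relIndex_map_subtype_self] at h3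
    exact T'.not_dvd_index (hdvd.trans h3)

theorem hub_iff [Finite G] (hS : SylComm G) (D : Subgroup G) (P₀ : Sylow 2 G) (hD : D ≤ P₀)
    (hidx : ¬ 2 ∣ ((P₀ : Subgroup G) ⊓ Subgroup.normalizer (D : Set G)).relIndex
      (Subgroup.normalizer (D : Set G)))
    (IH : ∀ D' : Subgroup G, D < D' → Prop4 D')
    (P : Sylow 2 G) (hDP : D ≤ P) (hne : D ≠ P) (y : G) (hy : y ∈ D) :
    y ∈ Subgroup.centralizer (Om (P : Subgroup G) : Set G) ↔
      y ∈ Subgroup.centralizer (Om (P₀ : Subgroup G) : Set G) := by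
  have : Fact (Nat.Prime 2) := ⟨Nat.prime_two⟩
  set N := Subgroup.normalizer (D : Set G) with hN
  have hlt : D < P := lt_of_le_of_ne hDP hne
  obtain ⟨s, hsP, hsD, hsN⟩ := Cfsg.Agent.Lib.Helper58.exists_normalizing_not_mem (p := 2)
    (P : Subgroup G) D P.isPGroup' hlt
  set X := (P : Subgroup G) ⊓ N with hX
  have hDX : D < X := by
    refine lt_of_le_of_ne (le_inf hDP Subgroup.le_normalizer) ?_
    intro h
    apply hsD
    rw [h]; exact Subgroup.mem_inf.mpr ⟨hsP, hsN⟩
  obtain ⟨a, haN, ha⟩ := exists_conj_le_of_relIndex (p := 2) (H := N) (R := (P₀ : Subgroup G) ⊓ N) (Q := X)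
    inf_le_right (P₀.isPGroup'.to_le inf_le_left) hidx inf_le_right (P.isPGroup'.to_le inf_le_left)
  have haD : cj a D = D := cj_eq_of_mem_normalizer haN
  have hD1 : D < cj a X := by
    refine lt_of_le_of_ne ?_ ?_
    · rw [← haD]; exact cj_mono a hDX.le
    · intro h
      have h1 := card_lt_card_of_lt hDX
      have h2 : Nat.card (cj a X) = Nat.card X := card_cj a X
      rw [← h] at h2
      omega
  have hP4 := IH _ hD1
  have h1P₀ : cj a X ≤ P₀ := ha.trans inf_le_left
  have h1aP : cj a X ≤ ((a • P : Sylow 2 G) : Subgroup G) := by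
    rw [coe_smul_sylow]; exact cj_mono a inf_le_left
  have hz : a * y * a⁻¹ ∈ D := conj_mem_of_mem_normalizer haN hy
  constructor
  · intro hg
    have h1 := good_transport a P hg
    have h2 := hP4 P₀ (a • P) h1P₀ h1aP _ (hD1.le hz) h1
    have h3 := keyK hS D P₀ hD hidx IH a⁻¹ (Subgroup.inv_mem _ haN) _ hz h2
    have e : a⁻¹ * (a * y * a⁻¹) * a⁻¹⁻¹ = y := by group
    rwa [e] at h3
  · intro hg
    have h1 := keyK hS D P₀ hD hidx IH a haN y hy hg
    have h2 := hP4 (a • P) P₀ h1aP h1P₀ _ (hD1.le hz) h1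
    have h3 := good_transport a⁻¹ (a • P) h2
    have e : a⁻¹ * (a * y * a⁻¹) * a⁻¹⁻¹ = y := by group
    rw [e, inv_smul_smul] at h3
    exact h3

theorem prop4_all [Finite G] (hS : SylComm G) :
    ∀ (k : ℕ) (D : Subgroup G), Nat.card G - Nat.card D = k → Prop4 D := by
  intro k
  induction k using Nat.strong_induction_on with
  | _ k ih =>
    intro D hk P Q hDP hDQ y hy hgQ
    have IH : ∀ D' : Subgroup G, D < D' → Prop4 D' := by
      intro D' hlt
      have h1 := card_lt_card_of_lt hlt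
      have h2 : Nat.card D' ≤ Nat.card G := Subgroup.card_le_card_group D'
      exact ih (Nat.card G - Nat.card D') (by omega) D' rfl
    by_cases h1 : D = P
    · have hPQ : (P : Subgroup G) ≤ Q := h1 ▸ hDQ
      have : P = Q := Sylow.ext (P.is_maximal' Q.isPGroup' hPQ).symm
      rw [this]; exact hgQ
    by_cases h2 : D = Q
    · have hQP : (Q : Subgroup G) ≤ P := h2 ▸ hDP
      have : Q = P := Sylow.ext (Q.is_maximal' P.isPGroup' hQP).symm
      rw [← this]; exact hgQ
    obtain ⟨P₀, hDP₀, hidx⟩ := exists_hub D P hDP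
    exact (hub_iff hS D P₀ hDP₀ hidx IH P hDP h1 y hy).mpr
      ((hub_iff hS D P₀ hDP₀ hidx IH Q hDQ h2 y hy).mp hgQ)

/-- If `y` lies in two Sylow 2-subgroups and centralizes the involutions of one, it centralizes those of
the other (assuming involutions in a Sylow 2-subgroup commute). -/
theorem good_of_good [Finite G] (hS : SylComm G) (P Q : Sylow 2 G) {y : G} (hyP : y ∈ P) (hyQ : y ∈ Q)
    (hg : y ∈ Subgroup.centralizer (Om (Q : Subgroup G) : Set G)) :
    y ∈ Subgroup.centralizer (Om (P : Subgroup G) : Set G) :=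
  prop4_all hS _ ((P : Subgroup G) ⊓ Q) rfl P Q inf_le_left inf_le_right y
    (Subgroup.mem_inf.mpr ⟨hyP, hyQ⟩) hg

end Cfsg.Agent.Lib.Helper38.TwoCentral
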