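import Mathlib
import Cfsg.Agent.Lib.Helper38.TwoCentralC

set_option autoImplicit false

/-! Consequences of "every 2-element is 2-central". -/

namespace Cfsg.Agent.Lib.Helper38.TwoCentral

open Cfsg.Agent.Lib.Helper39
open scoped Pointwise

variable {G : Type*} [Group G]

/-- every 2-element is centralized by a Sylow 2-subgroup -/
def H2 (G : Type*) [Group G] : Prop :=
  ∀ x : G, (∃ k : ℕ, orderOf x = 2 ^ k) →
    ∃ Q : Sylow 2 G, (Q : Subgroup G) ≤ Subgroup.centralizer ({x} : Set G)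

theorem isPGroup_zpowers {x : G} (hx : ∃ k : ℕ, orderOf x = 2 ^ k) : IsPGroup 2 (Subgroup.zpowers x) := by
  obtain ⟨k, hk⟩ := hx
  exact IsPGroup.of_card (n := k) (by rw [Nat.card_zpowers, hk])

theorem mem_sylow_of_mem_normalizer (Q : Sylow 2 G) {x : G} (hx : ∃ k : ℕ, orderOf x = 2 ^ k)
    (h : x ∈ Subgroup.normalizer ((Q : Subgroup G) : Set G)) : x ∈ Q := by
  have h1 := (isPGroup_zpowers hx).inf_normalizer_sylow Q
  have h2 : x ∈ Subgroup.zpowers x ⊓ Subgroup.normalizer (Q : Set G) :=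
    Subgroup.mem_inf.mpr ⟨Subgroup.mem_zpowers x, h⟩
  rw [h1] at h2
  exact (Subgroup.mem_inf.mp h2).2

theorem mem_centralizer_of_le {Q : Subgroup G} {x : G}
    (h : Q ≤ Subgroup.centralizer ({x} : Set G)) : x ∈ Subgroup.centralizer (Q : Set G) := by
  rw [Subgroup.mem_centralizer_iff]
  intro q hq
  have := Subgroup.mem_centralizer_singleton_iff.mp (h hq)
  exact this

theorem mem_sylow_of_le_centralizer (Q : Sylow 2 G) {x : G} (hx : ∃ k : ℕ, orderOf x = 2 ^ k)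
    (h : (Q : Subgroup G) ≤ Subgroup.centralizer ({x} : Set G)) : x ∈ Q :=
  mem_sylow_of_mem_normalizer Q hx (Subgroup.centralizer_le_normalizer _ (mem_centralizer_of_le h))

theorem exists_orderOf_of_mem_sylow (P : Sylow 2 G) {x : G} (hx : x ∈ P) : ∃ k : ℕ, orderOf x = 2 ^ k := by
  have : Fact (Nat.Prime 2) := ⟨Nat.prime_two⟩
  obtain ⟨k, hk⟩ := (IsPGroup.iff_orderOf.mp P.isPGroup') ⟨x, hx⟩
  exact ⟨k, by rw [← hk, ← Subgroup.orderOf_coe]⟩

theorem conj_pow_odd {v w : G} (h : v * w * v⁻¹ = w⁻¹) {m : ℕ} (hm : Odd m) :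
    v ^ m * w * (v ^ m)⁻¹ = w⁻¹ := by
  obtain ⟨j, rfl⟩ := hm
  have h2 : ∀ j : ℕ, v ^ (2 * j) * w * (v ^ (2 * j))⁻¹ = w := by
    intro j
    induction j with
    | zero => simp
    | succ j ih =>
      have e : v ^ (2 * (j + 1)) * w * (v ^ (2 * (j + 1)))⁻¹ =
          v ^ (2 * j) * (v * (v * w * v⁻¹) * v⁻¹) * (v ^ (2 * j))⁻¹ := by
        have : v ^ (2 * (j + 1)) = v ^ (2 * j) * v * v := by
          rw [mul_add, pow_add]; simp [pow_two, mul_assoc]
        rw [this]; group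
      rw [e, h]
      have : v * w⁻¹ * v⁻¹ = w := by
        have : v * w⁻¹ * v⁻¹ = (v * w * v⁻¹)⁻¹ := by group
        rw [this, h, inv_inv]
      rw [this, ih]
  have e : v ^ (2 * j + 1) * w * (v ^ (2 * j + 1))⁻¹ = v ^ (2 * j) * (v * w * v⁻¹) * (v ^ (2 * j))⁻¹ := by
    rw [pow_succ]; group
  rw [e, h]
  have : v ^ (2 * j) * w⁻¹ * (v ^ (2 * j))⁻¹ = (v ^ (2 * j) * w * (v ^ (2 * j))⁻¹)⁻¹ := by group
  rw [this, h2]

theorem sq_eq_one_of_real [Finite G] (hH : H2 G) {w u : G} (hw : ∃ k : ℕ, orderOf w = 2 ^ k)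
    (hu : u * w * u⁻¹ = w⁻¹) : w ^ 2 = 1 := by
  have : Fact (Nat.Prime 2) := ⟨Nat.prime_two⟩
  obtain ⟨Q, hQ⟩ := hH w hw
  set C := Subgroup.centralizer ({w} : Set G) with hC
  have hu' : u⁻¹ * w * u = w⁻¹ := by
    have : w = u⁻¹ * w⁻¹ * u := by rw [← hu]; group
    calc u⁻¹ * w * u = (u⁻¹ * w⁻¹ * u)⁻¹ := by group
      _ = w⁻¹ := by rw [← this]
  have hcjC : cj u (Q : Subgroup G) ≤ C := by
    intro x hx
    rw [mem_cj] at hx
    have h1 := Subgroup.mem_centralizer_singleton_iff.mp (hQ hx)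
    rw [hC, Subgroup.mem_centralizer_singleton_iff]
    -- (u⁻¹ x u) w = w (u⁻¹ x u)
    have h2 : (u⁻¹ * x * u) * w⁻¹ = w⁻¹ * (u⁻¹ * x * u) := by
      have : w⁻¹ * ((u⁻¹ * x * u) * w) * w⁻¹ = w⁻¹ * (w * (u⁻¹ * x * u)) * w⁻¹ := by rw [h1]
      simpa [mul_assoc] using this.symm
    rw [← hu'] at h2
    have h3 : u * ((u⁻¹ * x * u) * (u⁻¹ * w * u)) * u⁻¹ = u * ((u⁻¹ * w * u) * (u⁻¹ * x * u)) * u⁻¹ := by
      rw [h2]
    have e1 : u * ((u⁻¹ * x * u) * (u⁻¹ * w * u)) * u⁻¹ = x * w := by group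
    have e2 : u * ((u⁻¹ * w * u) * (u⁻¹ * x * u)) * u⁻¹ = w * x := by group
    rw [e1, e2] at h3
    exact h3
  obtain ⟨c, hcC, hc⟩ := exists_conj_le_of_relIndex (p := 2) (H := C) (R := (Q : Subgroup G))
    (Q := cj u (Q : Subgroup G)) hQ Q.isPGroup' (sylow_relIndex_of_le Q hQ) hcjC (isPGroup_cj u Q.isPGroup')
  set v := c * u with hv
  have hvQ : cj v (Q : Subgroup G) = Q := by
    apply cj_eq_of_le
    rw [hv, cj_mul]; exact hc
  have hvN : v ∈ Subgroup.normalizer ((Q : Subgroup G) : Set G) := mem_normalizer_of_cj_eq hvQ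
  have hvw : v * w * v⁻¹ = w⁻¹ := by
    have h1 := Subgroup.mem_centralizer_singleton_iff.mp hcC
    have : v * w * v⁻¹ = c * (u * w * u⁻¹) * c⁻¹ := by rw [hv]; group
    rw [this, hu]
    have h2 : c * w⁻¹ = w⁻¹ * c := by
      have : w⁻¹ * (c * w) * w⁻¹ = w⁻¹ * (w * c) * w⁻¹ := by rw [h1]
      simpa [mul_assoc] using this.symm
    rw [h2]; group
  set N := Subgroup.normalizer ((Q : Subgroup G) : Set G) with hN
  set m := (Q : Subgroup G).relIndex N with hm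
  have hmodd : Odd m := by
    rw [← Nat.not_even_iff_odd, even_iff_two_dvd]
    exact sylow_relIndex_of_le Q Subgroup.le_normalizer
  have hvm : v ^ m ∈ (Q : Subgroup G) := by
    have h1 : ((Q : Subgroup G).subgroupOf N).Normal := Subgroup.normal_in_normalizer
    have h2 := Subgroup.pow_index_mem ((Q : Subgroup G).subgroupOf N) (⟨v, hvN⟩ : N)
    rw [Subgroup.mem_subgroupOf] at h2
    exact h2
  have h3 := conj_pow_odd hvw hmodd
  have h4 := Subgroup.mem_centralizer_singleton_iff.mp (hQ hvm)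
  rw [h4] at h3
  have h5 : w = w⁻¹ := by simpa [mul_assoc] using h3
  rw [pow_two]
  nth_rewrite 1 [h5]
  exact inv_mul_cancel w

theorem sylComm_of_H2 [Finite G] (hH : H2 G) : SylComm G := by
  intro P s hs t ht hs2 ht2
  have hw := exists_orderOf_of_mem_sylow P (P.mul_mem hs ht)
  have hsi : s⁻¹ = s := by
    rw [inv_eq_iff_mul_eq_one, ← pow_two, hs2]
  have hti : t⁻¹ = t := by
    rw [inv_eq_iff_mul_eq_one, ← pow_two, ht2]
  have hu : s * (s * t) * s⁻¹ = (s * t)⁻¹ := by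
    rw [mul_inv_rev, hsi, hti, ← mul_assoc, ← pow_two, hs2, one_mul]
  have h1 := sq_eq_one_of_real hH hw hu
  have h2 : s * t = (s * t)⁻¹ := by
    rw [eq_inv_iff_mul_eq_one, ← pow_two, h1]
  rw [h2, mul_inv_rev, hsi, hti]

theorem mem_centralizer_Om [Finite G] (hH : H2 G) (P : Sylow 2 G) {y : G} (hy : y ∈ P) :
    y ∈ Subgroup.centralizer (Om (P : Subgroup G) : Set G) := by
  have hy2 := exists_orderOf_of_mem_sylow P hy
  obtain ⟨Q, hQ⟩ := hH y hy2
  have hyQ := mem_sylow_of_le_centralizer Q hy2 hQ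
  refine good_of_good (sylComm_of_H2 hH) P Q hy hyQ ?_
  exact Subgroup.centralizer_le (Om_le _) (mem_centralizer_of_le hQ)

end Cfsg.Agent.Lib.Helper38.TwoCentral
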