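import Mathlib
import Cfsg.Agent.Lib.Helper38.TwoCentralD

set_option autoImplicit false

/-! Main induction: every 2-element 2-central implies abelian Sylow 2-subgroups. -/

namespace Cfsg.Agent.Lib.Helper38.TwoCentral

open Cfsg.Agent.Lib.Helper39
open scoped Pointwise

universe u

theorem H2_quotient {G : Type u} [Group G] [Finite G] (hH : H2 G) (E : Subgroup G) [E.Normal] :
    H2 (G ⧸ E) := by
  have : Fact (Nat.Prime 2) := ⟨Nat.prime_two⟩
  intro x hx
  have hsurj := QuotientGroup.mk'_surjective E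
  obtain ⟨P⟩ : Nonempty (Sylow 2 G) := inferInstance
  obtain ⟨h, -, hh⟩ := exists_conj_le_of_relIndex (p := 2) (H := (⊤ : Subgroup (G ⧸ E)))
    (R := ((P.mapSurjective hsurj : Sylow 2 (G ⧸ E)) : Subgroup (G ⧸ E))) (Q := Subgroup.zpowers x)
    le_top (Sylow.isPGroup' _) (sylow_relIndex_top _) le_top (isPGroup_zpowers hx)
  have h1 : h * x * h⁻¹ ∈ ((P.mapSurjective hsurj : Sylow 2 (G ⧸ E)) : Subgroup (G ⧸ E)) :=
    hh (conj_mem_cj (Subgroup.mem_zpowers x))
  rw [Sylow.coe_mapSurjective] at h1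
  obtain ⟨p, hp, hpx⟩ := h1
  obtain ⟨g, rfl⟩ := hsurj h
  have hx' : QuotientGroup.mk' E (g⁻¹ * p * g) = x := by
    rw [map_mul, map_mul, hpx, map_inv]; group
  have hmem : g⁻¹ * p * g ∈ ((g⁻¹ • P : Sylow 2 G) : Subgroup G) := by
    rw [coe_smul_sylow]
    have := conj_mem_cj (g := g⁻¹) hp
    simpa using this
  obtain ⟨Q, hQ⟩ := hH _ (exists_orderOf_of_mem_sylow _ hmem)
  refine ⟨Q.mapSurjective hsurj, ?_⟩
  rw [Sylow.coe_mapSurjective]
  rintro _ ⟨q, hq, rfl⟩
  rw [Subgroup.mem_centralizer_singleton_iff, ← hx', ← map_mul, ← map_mul,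
    Subgroup.mem_centralizer_singleton_iff.mp (hQ hq)]

theorem H2_normalizer_Om {G : Type u} [Group G] [Finite G] (hH : H2 G) (P : Sylow 2 G) :
    H2 ↥(Subgroup.normalizer (Om (P : Subgroup G) : Set G)) := by
  have : Fact (Nat.Prime 2) := ⟨Nat.prime_two⟩
  set E := Om (P : Subgroup G) with hE
  set H := Subgroup.normalizer (E : Set G) with hHdef
  have hPH : (P : Subgroup G) ≤ H := le_normalizer_Om _
  have hE2 : IsPGroup 2 E := P.isPGroup'.to_le (Om_le _)
  intro w hw
  have hw' : ∃ k : ℕ, orderOf (w : G) = 2 ^ k := by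
    obtain ⟨k, hk⟩ := hw
    exact ⟨k, by rw [Subgroup.orderOf_coe, hk]⟩
  have hzH : Subgroup.zpowers (w : G) ≤ H := by
    rw [Subgroup.zpowers_le]; exact w.2
  obtain ⟨h, hhH, hh⟩ := exists_conj_le_of_relIndex (p := 2) (H := H) (R := (P : Subgroup G))
    (Q := Subgroup.zpowers (w : G)) hPH P.isPGroup' (sylow_relIndex_of_le P hPH) hzH (isPGroup_zpowers hw')
  have hp : h * (w : G) * h⁻¹ ∈ (P : Subgroup G) := hh (conj_mem_cj (Subgroup.mem_zpowers _))
  have hpc := mem_centralizer_Om hH P hp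
  have hwc : (w : G) ∈ Subgroup.centralizer (E : Set G) := by
    have h1 := conj_mem_cj (g := h⁻¹) hpc
    rw [cj_centralizer, cj_eq_of_mem_normalizer (Subgroup.inv_mem _ hhH)] at h1
    have e : h⁻¹ * (h * (w : G) * h⁻¹) * h⁻¹⁻¹ = w := by group
    rwa [e] at h1
  set C := Subgroup.centralizer ({(w : G)} : Set G) with hC
  have hEC : E ≤ C := by
    intro e he
    rw [hC, Subgroup.mem_centralizer_singleton_iff]
    exact (Subgroup.mem_centralizer_iff.mp hwc e he)
  obtain ⟨Q₀, hQ₀⟩ := hH _ hw'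
  obtain ⟨c, hcC, hc⟩ := exists_conj_le_of_relIndex (p := 2) (H := C) (R := (Q₀ : Subgroup G))
    (Q := E) hQ₀ Q₀.isPGroup' (sylow_relIndex_of_le Q₀ hQ₀) hEC hE2
  set Q₁ : Sylow 2 G := c⁻¹ • Q₀ with hQ₁
  have hEQ₁ : E ≤ (Q₁ : Subgroup G) := by
    rw [hQ₁, coe_smul_sylow, ← cj_inv_cj c E]
    exact cj_mono _ hc
  have hQ₁C : (Q₁ : Subgroup G) ≤ C := by
    rw [hQ₁, coe_smul_sylow,
      ← cj_eq_of_mem_normalizer (Subgroup.le_normalizer (Subgroup.inv_mem _ hcC) : c⁻¹ ∈ Subgroup.normalizer (C : Set G))]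
    exact cj_mono _ hQ₀
  have hOm : E = Om (Q₁ : Subgroup G) := by
    apply Subgroup.eq_of_le_of_card_ge
    · intro x hx
      exact mem_Om_of (hEQ₁ hx) ((mem_Om_iff (sylComm_of_H2 hH P)).mp hx).2
    · obtain ⟨g, hg⟩ := MulAction.exists_smul_eq G P Q₁
      rw [← hg, coe_smul_sylow, ← cj_Om, card_cj]
  have hQ₁H : (Q₁ : Subgroup G) ≤ H := by
    have := le_normalizer_Om (Q₁ : Subgroup G)
    rwa [← hOm] at this
  refine ⟨Q₁.subtype hQ₁H, ?_⟩
  intro x hx
  rw [Sylow.coe_subtype, Subgroup.mem_subgroupOf] at hx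
  rw [Subgroup.mem_centralizer_singleton_iff]
  apply Subtype.ext
  exact Subgroup.mem_centralizer_singleton_iff.mp (hQ₁C hx)

theorem main_aux : ∀ (n : ℕ) (G : Type u) [Group G] [Finite G], Nat.card G = n → H2 G →
    ∀ P : Sylow 2 G, ∀ a ∈ P, ∀ b ∈ P, a * b = b * a := by
  intro n
  induction n using Nat.strong_induction_on with
  | _ n ih =>
    intro G _ _ hn hH P a ha b hb
    have : Fact (Nat.Prime 2) := ⟨Nat.prime_two⟩
    set E := Om (P : Subgroup G) with hE
    by_cases hbot : E = ⊥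
    · have hP : (P : Subgroup G) = ⊥ := by
        by_contra hne
        obtain ⟨k, hk⟩ := P.isPGroup'.exists_card_eq
        have hk0 : k ≠ 0 := by
          rintro rfl
          rw [pow_zero] at hk
          exact hne (Subgroup.card_eq_one.mp hk)
        have hdvd : 2 ∣ Nat.card (P : Subgroup G) := by
          rw [hk]; exact dvd_pow_self 2 hk0
        obtain ⟨x, hx⟩ := exists_prime_orderOf_dvd_card' 2 hdvd
        have hx2 : (x : G) ^ 2 = 1 := by
          have := pow_orderOf_eq_one x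
          rw [hx] at this
          have h2 := congrArg Subtype.val this
          simpa using h2
        have hxE : (x : G) ∈ E := mem_Om_of x.2 hx2
        rw [hbot, Subgroup.mem_bot] at hxE
        have : x = 1 := Subtype.ext hxE
        rw [this, orderOf_one] at hx
        omega
      have ha' : a ∈ (P : Subgroup G) := ha
      have hb' : b ∈ (P : Subgroup G) := hb
      rw [hP, Subgroup.mem_bot] at ha' hb'
      rw [ha', hb']
    have hEcard : 1 < Nat.card E := by
      have h1 : Nat.card E ≠ 1 := fun h => hbot (Subgroup.card_eq_one.mp h)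
      have h2 : 0 < Nat.card E := Nat.card_pos
      omega
    by_cases htop : Subgroup.normalizer (E : Set G) = ⊤
    · have hEn : E.Normal := Subgroup.normalizer_eq_top_iff.mp htop
      have hlt : Nat.card (G ⧸ E) < n := by
        have h1 := Subgroup.card_eq_card_quotient_mul_card_subgroup E
        have h2 : 0 < Nat.card (G ⧸ E) := Nat.card_pos
        rw [← hn, h1]
        nlinarith
      have hsurj := QuotientGroup.mk'_surjective E
      have hcomm := ih _ hlt (G ⧸ E) rfl (H2_quotient hH E) (P.mapSurjective hsurj)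
      have hmemq : ∀ p ∈ P, QuotientGroup.mk' E p ∈ (P.mapSurjective hsurj : Sylow 2 (G ⧸ E)) := by
        intro p hp
        show _ ∈ ((P.mapSurjective hsurj : Sylow 2 (G ⧸ E)) : Subgroup (G ⧸ E))
        rw [Sylow.coe_mapSurjective]
        exact ⟨p, hp, rfl⟩
      -- the element `b` is central in `P`
      obtain ⟨Q, hQ⟩ := hH b (exists_orderOf_of_mem_sylow P hb)
      set D := (Subgroup.centralizer ({QuotientGroup.mk' E b} : Set (G ⧸ E))).comap (QuotientGroup.mk' E)
        with hD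
      have hPD : (P : Subgroup G) ≤ D := by
        intro p hp
        rw [hD, Subgroup.mem_comap, Subgroup.mem_centralizer_singleton_iff]
        exact hcomm _ (hmemq p hp) _ (hmemq b hb)
      have hQD : (Q : Subgroup G) ≤ D := by
        intro q hq
        rw [hD, Subgroup.mem_comap, Subgroup.mem_centralizer_singleton_iff, ← map_mul, ← map_mul,
          Subgroup.mem_centralizer_singleton_iff.mp (hQ hq)]
      obtain ⟨h, hhD, hh⟩ := exists_conj_le_of_relIndex (p := 2) (H := D) (R := (Q : Subgroup G))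
        (Q := (P : Subgroup G)) hQD Q.isPGroup' (sylow_relIndex_of_le Q hQD) hPD P.isPGroup'
      have h1 : h * a * h⁻¹ * b = b * (h * a * h⁻¹) :=
        Subgroup.mem_centralizer_singleton_iff.mp (hQ (hh (conj_mem_cj ha)))
      -- ε = h⁻¹ b h b⁻¹ ∈ E
      have hε : h⁻¹ * b * h * b⁻¹ ∈ E := by
        rw [hD, Subgroup.mem_comap, Subgroup.mem_centralizer_singleton_iff] at hhD
        rw [← QuotientGroup.eq_one_iff]
        show QuotientGroup.mk' E (h⁻¹ * b * h * b⁻¹) = 1
        rw [map_mul, map_mul, map_mul, map_inv, map_inv, mul_assoc ((QuotientGroup.mk' E h)⁻¹), ← hhD]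
        group
      have h2 : a * (h⁻¹ * b * h) = (h⁻¹ * b * h) * a := by
        have : h⁻¹ * (h * a * h⁻¹ * b) * h = h⁻¹ * (b * (h * a * h⁻¹)) * h := by rw [h1]
        have e1 : h⁻¹ * (h * a * h⁻¹ * b) * h = a * (h⁻¹ * b * h) := by group
        have e2 : h⁻¹ * (b * (h * a * h⁻¹)) * h = (h⁻¹ * b * h) * a := by group
        rw [e1, e2] at this
        exact this
      have h3 : (h⁻¹ * b * h * b⁻¹) * a = a * (h⁻¹ * b * h * b⁻¹) :=
        Subgroup.mem_centralizer_iff.mp (mem_centralizer_Om hH P ha) _ hε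
      -- b = ε⁻¹ (h⁻¹ b h)
      have e3 : b = (h⁻¹ * b * h * b⁻¹)⁻¹ * (h⁻¹ * b * h) := by group
      have h4 : a * (h⁻¹ * b * h * b⁻¹)⁻¹ = (h⁻¹ * b * h * b⁻¹)⁻¹ * a := by
        have : (h⁻¹ * b * h * b⁻¹)⁻¹ * ((h⁻¹ * b * h * b⁻¹) * a) * (h⁻¹ * b * h * b⁻¹)⁻¹ =
            (h⁻¹ * b * h * b⁻¹)⁻¹ * (a * (h⁻¹ * b * h * b⁻¹)) * (h⁻¹ * b * h * b⁻¹)⁻¹ := by rw [h3]
        simpa [mul_assoc] using this
      calc a * b = a * ((h⁻¹ * b * h * b⁻¹)⁻¹ * (h⁻¹ * b * h)) := by rw [← e3]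
        _ = (a * (h⁻¹ * b * h * b⁻¹)⁻¹) * (h⁻¹ * b * h) := (mul_assoc _ _ _).symm
        _ = ((h⁻¹ * b * h * b⁻¹)⁻¹ * a) * (h⁻¹ * b * h) := by rw [h4]
        _ = (h⁻¹ * b * h * b⁻¹)⁻¹ * (a * (h⁻¹ * b * h)) := mul_assoc _ _ _
        _ = (h⁻¹ * b * h * b⁻¹)⁻¹ * ((h⁻¹ * b * h) * a) := by rw [h2]
        _ = ((h⁻¹ * b * h * b⁻¹)⁻¹ * (h⁻¹ * b * h)) * a := (mul_assoc _ _ _).symm
        _ = b * a := by rw [← e3]
    · set H := Subgroup.normalizer (E : Set G) with hHdef
      have hPH : (P : Subgroup G) ≤ H := le_normalizer_Om _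
      have hlt : Nat.card H < n := by
        rw [← hn, ← Subgroup.card_top (G := G)]
        exact card_lt_card_of_lt (lt_top_iff_ne_top.mpr htop)
      have hcomm := ih _ hlt ↥H rfl (H2_normalizer_Om hH P) (P.subtype hPH)
      have hmem : ∀ p (hp : p ∈ P), (⟨p, hPH hp⟩ : H) ∈ (P.subtype hPH : Sylow 2 H) := by
        intro p hp
        show _ ∈ ((P.subtype hPH : Sylow 2 H) : Subgroup H)
        rw [Sylow.coe_subtype, Subgroup.mem_subgroupOf]
        exact hp
      have := hcomm _ (hmem a ha) _ (hmem b hb)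
      exact congrArg Subtype.val this

/-- Camina–Herzog: if every 2-element is centralized by a Sylow 2-subgroup, Sylow 2-subgroups are abelian. -/
theorem commute_of_H2 {G : Type u} [Group G] [Finite G] (hH : H2 G) (P : Sylow 2 G) {a b : G}
    (ha : a ∈ P) (hb : b ∈ P) : a * b = b * a :=
  main_aux _ G rfl hH P a ha b hb

end Cfsg.Agent.Lib.Helper38.TwoCentral
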