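import Mathlib
import Cfsg.Agent.Lib.Helper38.Z91Defs
import Cfsg.Agent.Lib.Helper38.Z91X2
import Cfsg.Agent.Lib.Helper38.ZassE
import Cfsg.Agent.Lib.Helper38.ZassG
import Cfsg.Agent.Lib.Helper38.ZassP
import Cfsg.Agent.Lib.Helper38.Zass689a
import Cfsg.Agent.Lib.Helper44.LawBounds
import Cfsg.Agent.S0253

set_option autoImplicit false
set_option linter.unusedVariables false

/-! Rung X: the insoluble case (`A₅` or `S₅`). -/

namespace Cfsg.Agent.Lib.Helper38.Z91

open Subgroup Cfsg.Agent.Lib.Helper61.Zass Cfsg.Agent.Lib.Helper38.Zass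
open scoped commutatorElement

/-- the centraliser of a subgroup containing an element of order four, meeting it in elements of
order at most two, has order not divisible by four -/
theorem not_four_dvd_centralizer {G : Type*} [Group G] [Finite G] (hFR : HasFreeRep G)
    (E : Subgroup G) (g : G) (hgE : g ∈ E) (h4 : orderOf g = 4)
    (hZord : ∀ x ∈ E ⊓ centralizer (E : Set G), orderOf x ≤ 2) :
    ¬ 4 ∣ Nat.card (centralizer (E : Set G)) := by
  have : Fact (Nat.Prime 2) := ⟨Nat.prime_two⟩
  set C := centralizer (E : Set G) with hC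
  have hg2 : orderOf (g ^ 2) = 2 := orderOf_sq_of_four h4
  have hno4 : ∀ f ∈ C, orderOf f ≠ 4 := by
    intro f hf hf4
    have hcomm : g * f = f * g := mem_centralizer_iff.mp hf g hgE
    have hf2 : f ^ 2 = g ^ 2 := D1 hFR _ _ (orderOf_sq_of_four hf4) hg2
    have hu : (f * g⁻¹) * (f * g⁻¹) = 1 := by
      have hc : Commute f g := hcomm.symm
      rw [sq_aux f g (hc.inv_right).eq.symm, hf2, mul_inv_cancel]
    have hfE : f ∈ E := by
      by_cases h1 : f * g⁻¹ = 1
      · have : f = g := by
          calc f = (f * g⁻¹) * g := by group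
            _ = g := by rw [h1, one_mul]
        rw [this]; exact hgE
      · have h2 : orderOf (f * g⁻¹) = 2 := orderOf_eq_prime (by rw [pow_two]; exact hu) h1
        have h3 : f * g⁻¹ = g ^ 2 := D1 hFR _ _ h2 hg2
        have : f = g ^ 2 * g := by
          calc f = (f * g⁻¹) * g := by group
            _ = g ^ 2 * g := by rw [h3]
        rw [this]; exact mul_mem (pow_mem hgE 2) hgE
    have := hZord f ⟨hfE, hf⟩
    omega
  intro h4
  obtain ⟨K, hK⟩ := Sylow.exists_subgroup_card_pow_prime (G := C) 2 (n := 2) (by simpa using h4)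
  have hKord : ∀ k : K, k ≠ 1 → orderOf ((k : C) : G) = 2 := by
    intro k hk
    have h1 : orderOf k ∣ 2 ^ 2 := hK ▸ orderOf_dvd_natCard k
    rw [← Subgroup.orderOf_coe, ← Subgroup.orderOf_coe] at h1
    obtain ⟨j, hj, hj'⟩ := (Nat.dvd_prime_pow Nat.prime_two).mp h1
    have hne4 := hno4 ((k : C) : G) (k : C).2
    have hne1 : orderOf ((k : C) : G) ≠ 1 := by
      intro h
      rw [orderOf_eq_one_iff] at h
      apply hk
      apply Subtype.ext
      apply Subtype.ext
      exact h
    interval_cases j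
    · exact absurd hj' hne1
    · exact hj'
    · exact absurd hj' hne4
  have hKnt : Nontrivial K := by
    apply (Finite.one_lt_card_iff_nontrivial).mp
    rw [hK]; norm_num
  obtain ⟨t, ht⟩ := exists_ne (1 : K)
  have hall : ∀ s : K, s ∈ zpowers t := by
    intro s
    by_cases hs : s = 1
    · rw [hs]; exact one_mem _
    · have : s = t := by
        apply Subtype.ext
        apply Subtype.ext
        exact D1 hFR _ _ (hKord s hs) (hKord t ht)
      rw [this]; exact mem_zpowers t
  have h1 : Nat.card K = orderOf t := by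
    rw [← Nat.card_zpowers, (eq_top_iff' _).mpr hall, Subgroup.card_top]
  rw [← Subgroup.orderOf_coe, ← Subgroup.orderOf_coe, hKord t ht, hK] at h1
  omega

theorem orderOf_iM : orderOf iM = 4 := by
  have : Fact (Nat.Prime 2) := ⟨Nat.prime_two⟩
  have h := orderOf_eq_prime_pow (x := iM) (p := 2) (n := 1)
    (by rw [pow_one, pow_two, iM_sq]; exact cM_ne)
    (by
      show iM ^ (2 ^ 2) = 1
      have : iM ^ (2 ^ 2) = (iM * iM) * (iM * iM) := by
        norm_num [pow_succ, mul_assoc]
      rw [this, iM_sq, cM_sq])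
  simpa using h

theorem centralizes_of_perfect {G : Type*} [Group G] (S : Subgroup G) [hS : S.Normal]
    (hperf : commutator S = ⊤) (g : G)
    (hcen : ∀ s : S, MulAut.conjNormal g s * s⁻¹ ∈ center S) : g ∈ centralizer (S : Set G) := by
  have key : ∀ s : S, MulAut.conjNormal g s = s := by
    let T : Subgroup S := (MulAut.conjNormal g : MulAut S).toMonoidHom.eqLocus (MonoidHom.id S)
    have hT : commutator S ≤ T := by
      rw [commutator_def, Subgroup.commutator_le]
      intro s _ t _
      show MulAut.conjNormal g ⁅s, t⁆ = ⁅s, t⁆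
      obtain ⟨z, hz, hzs⟩ : ∃ z ∈ center S, MulAut.conjNormal g s = z * s :=
        ⟨_, hcen s, by simp⟩
      obtain ⟨w, hw, hwt⟩ : ∃ w ∈ center S, MulAut.conjNormal g t = w * t :=
        ⟨_, hcen t, by simp⟩
      rw [commutatorElement_def, map_mul, map_mul, map_mul, map_inv, map_inv, hzs, hwt]
      have hz' := mem_center_iff.mp hz
      have hw' := mem_center_iff.mp hw
      have e1 : z * s * (w * t) = (s * t) * (z * w) := by
        calc z * s * (w * t) = z * (s * w) * t := by simp only [mul_assoc]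
          _ = z * (w * s) * t := by rw [hw' s]
          _ = (z * w) * (s * t) := by simp only [mul_assoc]
          _ = (s * t) * (z * w) := by
            rw [mul_assoc z w, ← hw' (s * t), ← mul_assoc, ← hz' (s * t), mul_assoc]
      have e2 : (z * s)⁻¹ * (w * t)⁻¹ = (z * w)⁻¹ * (s⁻¹ * t⁻¹) := by
        rw [← mul_inv_rev, ← mul_inv_rev, ← mul_inv_rev]
        congr 1
        calc w * t * (z * s) = w * (t * z) * s := by simp only [mul_assoc]
          _ = w * (z * t) * s := by rw [hz' t]
          _ = (w * z) * (t * s) := by simp only [mul_assoc]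
          _ = (z * w) * (t * s) := by rw [hz' w]
          _ = t * s * (z * w) := by
            rw [mul_assoc z w, ← hw' (t * s), ← mul_assoc, ← hz' (t * s), mul_assoc]
      calc z * s * (w * t) * (z * s)⁻¹ * (w * t)⁻¹
          = (z * s * (w * t)) * ((z * s)⁻¹ * (w * t)⁻¹) := by simp only [mul_assoc]
        _ = (s * t) * (z * w) * ((z * w)⁻¹ * (s⁻¹ * t⁻¹)) := by rw [e1, e2]
        _ = s * t * s⁻¹ * t⁻¹ := by
          rw [mul_assoc (s * t), mul_inv_cancel_left, ← mul_assoc]
    intro s
    rw [hperf] at hT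
    exact hT (mem_top s)
  rw [mem_centralizer_iff]
  intro s hs
  have h1 : MulAut.conjNormal g (⟨s, hs⟩ : S) = ⟨s, hs⟩ := key _
  have h2 : g * s * g⁻¹ = s := by
    have := congrArg Subtype.val h1
    rwa [MulAut.conjNormal_apply] at this
  exact (mul_inv_eq_iff_eq_mul.mp h2).symm

theorem exists_A5_S5' {G : Type*} [Group G] [Finite G] (hFR : HasFreeRep G) (S : Subgroup G)
    [hS : S.Normal] (e : S ≃* Matrix.SpecialLinearGroup (Fin 2) (ZMod 5)) :
    ∃ N : Subgroup G, N.Normal ∧ IsZGroup N ∧
      ((∃ f : G →* alternatingGroup (Fin 5), Function.Surjective f ∧ f.ker = N) ∨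
       (∃ f : G →* Equiv.Perm (Fin 5), Function.Surjective f ∧ f.ker = N)) := by
  classical
  have : Fact (Nat.Prime 5) := ⟨by norm_num⟩
  obtain ⟨ε⟩ := Cfsg.Agent.S0253.result (F := ZMod 5) (ZMod.card 5)
  let q : Matrix.SpecialLinearGroup (Fin 2) (ZMod 5) →*
      Matrix.ProjectiveSpecialLinearGroup (Fin 2) (ZMod 5) := QuotientGroup.mk' _
  let π : S →* alternatingGroup (Fin 5) := ε.toMonoidHom.comp (q.comp e.toMonoidHom)
  have hπ : Function.Surjective π :=
    ε.surjective.comp ((QuotientGroup.mk'_surjective _).comp e.surjective)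
  have hker : ∀ s : S, π s = 1 ↔ s ∈ center S := by
    intro s
    have h1 : π s = 1 ↔ q (e s) = 1 := by
      show ε (q (e s)) = 1 ↔ _
      rw [MulEquiv.map_eq_one_iff]
    rw [h1]
    show (QuotientGroup.mk' _ (e s)) = 1 ↔ _
    rw [QuotientGroup.mk'_apply, QuotientGroup.eq_one_iff, mem_center_iff, mem_center_iff]
    constructor
    · intro h t
      apply e.injective
      rw [map_mul, map_mul]
      exact h (e t)
    · intro h t
      obtain ⟨t', rfl⟩ := e.surjective t
      rw [← map_mul, ← map_mul, h t']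
  have hZ : ∀ (g : G) (s : S), π s = 1 → π (MulAut.conjNormal g s) = 1 := by
    intro g s hs
    rw [hker] at hs ⊢
    rw [mem_center_iff] at hs ⊢
    intro t
    obtain ⟨t', rfl⟩ := (MulAut.conjNormal g : MulAut S).surjective t
    rw [← map_mul, ← map_mul, hs t']
  obtain ⟨Θ, hΘ1, hΘ2⟩ := exists_hom_perm 5 (by norm_num) (by norm_num) S π hπ hZ
  have hperf : commutator S = ⊤ := by
    have h1 : commutator (Matrix.SpecialLinearGroup (Fin 2) (ZMod 5)) = ⊤ :=
      Cfsg.Agent.Lib.Helper44.sl2_perfect (ZMod 5) (by rw [ZMod.card]; norm_num)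
    exact commutator_eq_top_of_equiv e.symm h1
  -- the kernel centralizes `S`
  have hNC : Θ.ker ≤ centralizer (S : Set G) := by
    intro g hg
    have hg' := (hΘ2 g).mp hg
    apply centralizes_of_perfect S hperf g
    intro s
    rw [← hker, map_mul, map_inv, hg' s, mul_inv_cancel]
  have h4 : ¬ 4 ∣ Nat.card (centralizer (S : Set G)) := by
    apply not_four_dvd_centralizer hFR S ((e.symm iM : S) : G) (e.symm iM).2
    · rw [Subgroup.orderOf_coe, MulEquiv.orderOf_eq, orderOf_iM]
    · intro x hx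
      have hx1 : x ∈ S := (Subgroup.mem_inf.mp hx).1
      have hx2 : x ∈ centralizer (S : Set G) := (Subgroup.mem_inf.mp hx).2
      have hcen : e ⟨x, hx1⟩ ∈ center (Matrix.SpecialLinearGroup (Fin 2) (ZMod 5)) := by
        rw [mem_center_iff]
        intro s
        obtain ⟨t, rfl⟩ := e.surjective s
        rw [← map_mul, ← map_mul]
        congr 1
        apply Subtype.ext
        exact mem_centralizer_iff.mp hx2 t t.2
      have h1 : orderOf (⟨e ⟨x, hx1⟩, hcen⟩ :
          center (Matrix.SpecialLinearGroup (Fin 2) (ZMod 5))) ∣ 2 := by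
        have h := orderOf_dvd_natCard (⟨e ⟨x, hx1⟩, hcen⟩ :
          center (Matrix.SpecialLinearGroup (Fin 2) (ZMod 5)))
        rwa [E2] at h
      rw [Subgroup.orderOf_mk, MulEquiv.orderOf_eq, Subgroup.orderOf_mk] at h1
      exact Nat.le_of_dvd (by norm_num) h1
  refine ⟨Θ.ker, inferInstance, ?_, ?_⟩
  · apply isZGroup_of_not_eight_dvd hFR
    intro h8
    apply h4
    exact dvd_trans (dvd_trans (by norm_num) h8) (Subgroup.card_dvd_of_le hNC)
  · apply An_or_Sn Θ
    intro a
    obtain ⟨s, rfl⟩ := hπ a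
    exact ⟨s, hΘ1 s⟩

theorem exists_A5_S5 {G : Type*} [Group G] [Finite G] (hFR : HasFreeRep G)
    (core : ∃ G₀ : Subgroup G, G₀.Normal ∧ (G₀.index = 1 ∨ G₀.index = 2) ∧
      ∃ S M : Subgroup G, S ⊔ M = G₀ ∧ S ⊓ M = ⊥ ∧ (∀ s ∈ S, ∀ x ∈ M, s * x = x * s) ∧
        Nonempty (S ≃* Matrix.SpecialLinearGroup (Fin 2) (ZMod 5)) ∧
        (∀ (p : ℕ) [Fact p.Prime] (P : Sylow p M), IsCyclic P) ∧ (Nat.card M).Coprime 30) :
    ∃ N : Subgroup G, N.Normal ∧ IsZGroup N ∧
      ((∃ f : G →* alternatingGroup (Fin 5), Function.Surjective f ∧ f.ker = N) ∨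
       (∃ f : G →* Equiv.Perm (Fin 5), Function.Surjective f ∧ f.ker = N)) := by
  obtain ⟨G₀, hG₀n, -, S, M, hSM, -, hcomm, ⟨e⟩, -, hcop⟩ := core
  have hScard : Nat.card S = 120 := by rw [Nat.card_congr e.toEquiv]; exact card_S5
  have hchar : ∀ x ∈ G₀, x ^ 120 = 1 → x ∈ S := by
    intro x hx hx120
    have hr := MonoidHom.noncommCoprod_range S.subtype M.subtype
      (fun s m => hcomm s.1 s.2 m.1 m.2)
    rw [Subgroup.range_subtype, Subgroup.range_subtype, hSM] at hr
    rw [← hr] at hx
    obtain ⟨⟨s, m⟩, rfl⟩ := hx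
    have hsm : (MonoidHom.noncommCoprod S.subtype M.subtype
      (fun s m => hcomm s.1 s.2 m.1 m.2)) (s, m) = (s : G) * (m : G) := rfl
    rw [hsm] at hx120 ⊢
    have hc : Commute (s : G) (m : G) := hcomm s.1 s.2 m.1 m.2
    rw [hc.mul_pow] at hx120
    have hs120 : (s : G) ^ 120 = 1 := by
      have : s ^ Nat.card S = 1 := pow_card_eq_one'
      rw [hScard] at this
      have := congrArg Subtype.val this
      simpa using this
    rw [hs120, one_mul] at hx120
    have h1 : orderOf (m : G) ∣ 120 := orderOf_dvd_of_pow_eq_one hx120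
    have h2 : orderOf (m : G) ∣ Nat.card M := by
      rw [Subgroup.orderOf_coe]; exact orderOf_dvd_natCard m
    have h3 : (Nat.card M).Coprime 120 := by
      have c2 : (Nat.card M).Coprime 2 := Nat.Coprime.coprime_dvd_right (by norm_num) hcop
      have : (120 : ℕ) = 2 * 2 * 30 := by norm_num
      rw [this]
      exact Nat.Coprime.mul_right (Nat.Coprime.mul_right c2 c2) hcop
    have h4 : orderOf (m : G) = 1 := Nat.eq_one_of_dvd_coprimes h3 h2 h1
    rw [orderOf_eq_one_iff.mp h4, mul_one]
    exact s.2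
  have hSn : S.Normal := by
    constructor
    intro s hs g
    apply hchar
    · exact hG₀n.conj_mem s (hSM ▸ (le_sup_left : S ≤ S ⊔ M) hs) g
    · have hs120 : s ^ 120 = 1 := by
        have : (⟨s, hs⟩ : S) ^ Nat.card S = 1 := pow_card_eq_one'
        rw [hScard] at this
        have := congrArg Subtype.val this
        simpa using this
      rw [conj_pow, hs120]; simp
  exact exists_A5_S5' hFR S e

end Cfsg.Agent.Lib.Helper38.Z91
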